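import Cfsg.Agent.H327.RC.Desc
import Cfsg.Agent.H520.RC.SpId

/-!
# S3510, row D: no member is a field automorphism (helper327)

* `mrule_field` (all `q`, not `|F_0| = 2`, `dim V = 4`) : if the member `x i0` lifts to `Y` with `Y (b i) = b i`, then
  every point is fixed by `Sp (V0)` or by `x i0`;
* `dead_semi` : `q` odd.
-/

set_option autoImplicit false

namespace Cfsg.Agent.H327.RC

open Module MulAction Cfsg.Agent.H520.RC Cfsg.Agent.H106.RC Cfsg.Agent.H380.RC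

variable {F : Type} {V : Type} [Field F] [Finite F] [AddCommGroup V] [Module F V] [FiniteDimensional F V]
  {B : LinearMap.BilinForm F V} {G : Type} [Group G] {Ω : Type} [MulAction G Ω]
  {N : Subgroup G} {ρ : ↥(Sp B) →* G} {ι : Type} {x : ι → G} {r : ι → ℕ} {M : ι → SS B}

omit [Finite F] in
/-- `Sp (V0)` is a proper subgroup -/
theorem ext_not_surj (E : SpEnv Ω N ρ) {Y : SS B} {n : ℕ} {b : Basis (Fin n) F V} (hb : ∀ i, Y (b i) = b i)
    {t : F} (ht0 : t ≠ 0) (ht : Y.l * Y.σ t = t) (hσ : Y.σ ≠ 1) :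
    ¬ Function.Surjective (ext ht0 ht hb) := by
  intro hs
  have hn : n = finrank F V := by rw [Module.finrank_eq_card_basis b, Fintype.card_fin]
  have hn4 : 4 ≤ n := by rw [hn]; exact E.dim
  apply hσ
  ext c
  set e : V := b ⟨0, by omega⟩ with he
  have hYe : Y e = e := hb _
  have he0 : e ≠ 0 := b.ne_zero _
  obtain ⟨m, hm⟩ := hs (tv E.form e (c * t⁻¹))
  have h1 := ext_fix ht0 ht hb m
  rw [hm, cj_tv, hYe] at h1
  have h2 := tv_inj E he0 (congrArg ρ h1)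
  have hσt : Y.σ t ≠ 0 := (map_ne_zero Y.σ).2 ht0
  have hl := Y.hl
  rw [map_mul, map_inv₀] at h2
  have h3 : (Y.σ t)⁻¹ * Y.l⁻¹ = t⁻¹ := by
    rw [← mul_inv, mul_comm, ht]
  rw [mul_assoc, h3] at h2
  exact mul_right_cancel₀ (inv_ne_zero ht0) h2

/-- a power of a member is another member only if they coincide -/
theorem PF.eq_of_pow (hx : PF x r) {i i0 : ι} {k : ℕ} (h : x i = x i0 ^ k) : i = i0 := by
  by_contra hne
  have h1 : r i ≠ r i0 := fun h => hne (hx.inj h)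
  have hco : (r i).Coprime (r i0) := (Nat.coprime_primes (hx.prime i) (hx.prime i0)).2 h1
  have h2 : x i ^ r i0 = 1 := by rw [h, ← pow_mul, mul_comm, pow_mul, hx.pow, one_pow]
  have h3 : orderOf (x i) ∣ r i := orderOf_dvd_of_pow_eq_one (hx.pow i)
  have h4 : orderOf (x i) ∣ r i0 := orderOf_dvd_of_pow_eq_one h2
  exact hx.ne i (orderOf_eq_one_iff.1 (Nat.eq_one_of_dvd_coprimes hco h3 h4))

/-- **M-rule for the group over the fixed field** -/
theorem mrule_field [Finite G] [Finite ι] (E : SpEnv Ω N ρ) (hIH : IH (Nat.card N)) (hx : PF x r) (hcov : Cov Ω x)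
    (hM : ∀ i, Lf ρ (x i) (M i)) (i0 : ι) {Y : SS B} {n : ℕ} {b : Basis (Fin n) F V} (hY : Lf ρ (x i0) Y)
    (hb : ∀ i, Y (b i) = b i) (hσ : Y.σ ≠ 1) {t : F} (ht0 : t ≠ 0) (ht : Y.l * Y.σ t = t)
    (h6 : 6 ≤ finrank F V ∨ 3 ≤ Nat.card (Fx Y.σ)) (ω : Ω) :
    (∀ m, ρ (ext ht0 ht hb m) • ω = ω) ∨ x i0 • ω = ω := by
  have hn : n = finrank F V := by rw [Module.finrank_eq_card_basis b, Fintype.card_fin]
  have hV0 : finrank (Fx Y.σ) (V0 Y) = n := by
    rw [Module.finrank_eq_card_basis (b0 hb), Fintype.card_fin]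
  have hfd : FiniteDimensional (Fx Y.σ) (V0 Y) := Module.Finite.of_basis (b0 hb)
  have hB0 := nalt_B0 ht0 ht hb E.form
  have hdim := E.dim
  obtain ⟨m, hm⟩ := exists_dim E.form
  have hc : 6 ≤ finrank (Fx Y.σ) (V0 Y) ∨ (finrank (Fx Y.σ) (V0 Y) = 4 ∧ 3 ≤ Nat.card (Fx Y.σ)) := by
    rw [hV0, hn]
    rcases h6 with h6 | h6
    · exact Or.inl h6
    · by_cases h7 : 6 ≤ finrank F V
      · exact Or.inl h7
      · exact Or.inr ⟨by omega, h6⟩
  have hc3 : 6 ≤ finrank (Fx Y.σ) (V0 Y) ∨ (finrank (Fx Y.σ) (V0 Y) = 4 ∧ 3 ≤ Nat.card (Fx Y.σ)) ∨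
      (finrank (Fx Y.σ) (V0 Y) ≠ 0 ∧ 4 ≤ Nat.card (Fx Y.σ)) := by
    rcases hc with h | h
    · exact Or.inl h
    · exact Or.inr (Or.inl h)
  have hc3' : 6 ≤ finrank (Fx Y.σ) (V0 Y) ∨ (finrank (Fx Y.σ) (V0 Y) = 4 ∧ 3 ≤ Nat.card (Fx Y.σ)) ∨
      4 ≤ Nat.card (Fx Y.σ) := by
    rcases hc with h | h
    · exact Or.inl h
    · exact Or.inr (Or.inl h)
  have hF3 : 6 ≤ finrank F V ∨ (finrank F V = 4 ∧ 3 ≤ Nat.card F) ∨ 4 ≤ Nat.card F := by
    by_cases h7 : 6 ≤ finrank F V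
    · exact Or.inl h7
    · right; left
      refine ⟨by omega, ?_⟩
      have h8 := h6.resolve_left h7
      exact h8.trans (Nat.card_le_card_of_injective _ (Fx Y.σ).subtype_injective)
  have hfin : Finite V := Module.finite_of_finite F
  have hfinS : Finite (Sp (B0 ht0 ht)) := Finite.of_injective
    (fun s : Sp (B0 ht0 ht) => (fun v : V0 Y => s.1 v)) (fun s s' h => by
      apply Subtype.ext
      apply LinearEquiv.ext
      intro v
      exact congrFun h v)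
  rcases E.mrule hIH (ext ht0 ht hb) (ext_injective ht0 ht hb)
    (E.range_ne (perfect_Sp E.form hF3) _ (ext_not_surj E hb ht0 ht hσ)) (perfect_Sp hB0 hc3')
    (simple_Sp hB0 hc3) (ncomm_Sp hB0 hc3) hM hx hcov
    (fun i s => norm_cj hb ht0 ht E hY (hM i) (hx.comm i0 i) s)
    (Or.inl ⟨cl_Sp hB0 hc3, not_exc_Sp hB0 hc⟩) ω with h | ⟨i, h1, h2⟩
  · exact Or.inl h
  · obtain ⟨k, hk⟩ := cent_lift hb ht0 ht E hY (hM i) h1
    rw [PF.eq_of_pow hx hk] at h2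
    exact Or.inr h2

/-- **no member is semilinear (`q` odd)** -/
theorem dead_semi [Finite G] [Nonempty Ω] [Finite ι] (E : SpEnv Ω N ρ) (hIH : IH (Nat.card N)) (h2 : (2 : F) ≠ 0)
    (hx : PF x r) (hcov : Cov Ω x) (hM : ∀ i, Lf ρ (x i) (M i)) (i0 : ι) (hi0 : ¬ (M i0).IsLin) : False := by
  obtain ⟨Y, b, hY, hb, hord⟩ := exists_Y E (hM i0) (hx.prime i0) (hx.pow i0) hi0
  have hV := SpEnv_nontrivial E
  obtain ⟨t, ht0, ht⟩ := exists_t E.form hb
  have hσ : Y.σ ≠ 1 := by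
    intro h
    rw [h, orderOf_one] at hord
    exact (hx.prime i0).ne_one hord.symm
  have hdim := E.dim
  have h3 : 3 ≤ Nat.card (Fx Y.σ) := by
    have h1 : Nat.card (Fx Y.σ) ≠ 0 := Nat.card_ne_zero.2 ⟨inferInstance, inferInstance⟩
    have h4 : 2 ≤ Nat.card (Fx Y.σ) := Finite.one_lt_card
    by_contra h5
    have h6 : Nat.card (Fx Y.σ) = 2 := by omega
    apply h2
    have h7 : ((Nat.card (Fx Y.σ) : ℕ) : Fx Y.σ) = 0 := by
      have := card_nsmul_eq_zero' (G := Fx Y.σ) (x := 1)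
      rwa [nsmul_one] at this
    rw [h6] at h7
    have h8 := map_natCast (Fx Y.σ).subtype 2
    rw [h7, map_zero] at h8
    exact_mod_cast h8.symm
  set e : V := b ⟨0, by omega⟩ with he
  refine lr_field E h2 hY hσ (e := e) (b.ne_zero _) (hb _) (c := t⁻¹) (inv_ne_zero ht0) fun ω => ?_
  rcases mrule_field E hIH hx hcov hM i0 hY hb hσ ht0 ht (Or.inr h3) ω with h | h
  · left
    have h5 := h (tv (nalt_B0 ht0 ht hb E.form) ⟨e, hb _⟩ 1)
    rw [ext_tv ht0 ht hb E.form] at h5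
    have h6 : (((1 : Fx Y.σ) : F) * t⁻¹) = t⁻¹ := one_mul _
    rwa [h6] at h5
  · exact Or.inr h

end Cfsg.Agent.H327.RC
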