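import Cfsg.Agent.H327.RC.EndTwo
import Cfsg.Agent.H385.RC.Ev

/-!
# S3510, row D, `q` even: no member is a field automorphism with `|F_0| > 2` (or dimension at least six) (helper327)
-/

set_option autoImplicit false

namespace Cfsg.Agent.H327.RC

open Module MulAction Cfsg.Agent.H520.RC Cfsg.Agent.H106.RC Cfsg.Agent.H380.RC

section

variable {F : Type*} {V : Type*} [Field F] [AddCommGroup V] [Module F V] {B : LinearMap.BilinForm F V}

/-- three fixed vectors `a`, `b`, `e` with `B a b = t`, `e` orthogonal to `a`, `b` -/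
theorem exists_triple (hB : NAlt B) (hd : 4 ≤ finrank F V) {Y : SS B} {n : ℕ} {b : Basis (Fin n) F V}
    (hb : ∀ i, Y (b i) = b i) {t : F} (ht0 : t ≠ 0) (ht : Y.l * Y.σ t = t) :
    ∃ u v e : V, e ≠ 0 ∧ Y e = e ∧ Y u = u ∧ Y v = v ∧ B u e = 0 ∧ B v e = 0 ∧ B u v = t := by
  have hn : n = finrank F V := by rw [Module.finrank_eq_card_basis b, Fintype.card_fin]
  have hV0 : finrank (Fx Y.σ) (V0 Y) = n := by
    rw [Module.finrank_eq_card_basis (b0 hb), Fintype.card_fin]
  have hfd : FiniteDimensional (Fx Y.σ) (V0 Y) := Module.Finite.of_basis (b0 hb)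
  have hB0 := nalt_B0 ht0 ht hb hB
  have hnt : Nontrivial (V0 Y) := Module.nontrivial_of_finrank_pos (R := Fx Y.σ) (by omega)
  obtain ⟨u, hu⟩ := exists_ne (0 : V0 Y)
  obtain ⟨v, hv⟩ := hB0.exists_one hu
  obtain ⟨e, he0, hue, hve⟩ := exists_orth2 (B := B0 ht0 ht) (by omega) u v
  refine ⟨u, v, e, fun h => he0 (Subtype.ext h), V0_fix e, V0_fix u, V0_fix v, ?_, ?_, ?_⟩
  · rw [B_eq ht0 ht, hue]
    exact mul_zero t
  · rw [B_eq ht0 ht, hve]
    exact mul_zero t
  · rw [B_eq ht0 ht, hv]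
    exact mul_one t

end

section dead

variable {F : Type} {V : Type} [Field F] [Finite F] [AddCommGroup V] [Module F V] [FiniteDimensional F V]
  {B : LinearMap.BilinForm F V} {G : Type} [Group G] [Finite G] {Ω : Type} [Nonempty Ω] [MulAction G Ω]
  {N : Subgroup G} {ρ : ↥(Sp B) →* G} {ι : Type} [Finite ι] {x : ι → G} {r : ι → ℕ} {M : ι → SS B}

/-- **no member is a field automorphism with `|F_0| > 2`, `q` even** -/
theorem dead_field (E : SpEnv Ω N ρ) (hIH : IH (Nat.card N)) (h2 : (2 : F) = 0)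
    (hx : PF x r) (hcov : Cov Ω x) (hM : ∀ i, Lf ρ (x i) (M i)) (i0 : ι) {Y : SS B} {n : ℕ} {b : Basis (Fin n) F V}
    (hY : Lf ρ (x i0) Y) (hb : ∀ i, Y (b i) = b i) (hσ : Y.σ ≠ 1)
    (h6 : 6 ≤ finrank F V ∨ 3 ≤ Nat.card (Fx Y.σ)) : False := by
  have hV := SpEnv_nontrivial E
  obtain ⟨t, ht0, ht⟩ := exists_t E.form hb
  obtain ⟨u, v, e, he0, he, hu, hv, hue, hve, huv⟩ := exists_triple E.form E.dim hb ht0 ht
  refine field_end E h2 hY hσ (hx.prime i0) (hx.pow i0) ht0 ht he0 he hu hv hue hve huv fun ω => ?_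
  rcases mrule_field E hIH hx hcov hM i0 hY hb hσ ht0 ht h6 ω with h | h
  · left
    have h5 := h (tv (nalt_B0 ht0 ht hb E.form) ⟨u, hu⟩ 1 * tv (nalt_B0 ht0 ht hb E.form) ⟨v, hv⟩ 1)
    rw [map_mul, ext_tv ht0 ht hb E.form, ext_tv ht0 ht hb E.form] at h5
    have h6 : (((1 : Fx Y.σ) : F) * t⁻¹) = t⁻¹ := one_mul _
    rwa [h6] at h5
  · exact Or.inr h

end dead

/-! ### the environment `Ev` -/

section ev

open Cfsg.Agent.H385.RC

theorem Ev_sp {F V G Ω : Type*} [Field F] [AddCommGroup V] [Module F V] [Group G] [DistribMulAction G V]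
    [MulAction G Ω] {B : LinearMap.BilinForm F V} {N : Subgroup G} (h : Ev B N) (hE : Env G Ω N)
    (hd : 4 ≤ finrank F V) :
    ∃ ρ : ↥(Sp B) →* G, (∀ t v, ρ t • v = t.1 v) ∧ SpEnv Ω N ρ ∧ ∀ x : G, ∃ M : SS B, M.l = 1 ∧ (∀ v, M v = x • v) ∧
      Lf ρ x M := by
  choose g hg using fun t : ↥(Sp B) => h.surj t.1 t.2
  let ρ : ↥(Sp B) →* G := MonoidHom.mk' g (fun s t => h.ext fun v => by
    rw [hg, mul_smul, hg, hg]
    rfl)
  have hρ : ∀ t v, ρ t • v = t.1 v := hg
  have hL : ∀ x : G, ∃ M : SS B, M.l = 1 ∧ (∀ v, M v = x • v) ∧ Lf ρ x M := by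
    intro x
    obtain ⟨σ, h1, h2⟩ := h.semi x
    let M : SS B :=
      { f := DistribMulAction.toAddEquiv V x
        σ := σ
        l := 1
        hl := one_ne_zero
        smul' := h1
        form' := fun u v => by rw [one_mul]; exact h2 u v }
    have hMv : ∀ v, M v = x • v := fun v => rfl
    refine ⟨M, rfl, hMv, fun t => h.ext fun v => ?_⟩
    obtain ⟨v, rfl⟩ := M.surjective v
    rw [hρ, SS.cj_apply, hMv, hMv, mul_smul, mul_smul, inv_smul_smul, hρ]
  refine ⟨ρ, hρ, ⟨hE, ⟨h.alt, h.nd⟩, ?_, fun t => ⟨fun ht => ⟨1, fun v => ?_⟩, ?_⟩, fun x => ?_, hd⟩, hL⟩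
  · ext x
    constructor
    · rintro ⟨t, rfl⟩
      rw [h.mem]
      intro a v
      rw [hρ, hρ, map_smul]
    · intro hx
      refine ⟨⟨{ toFun := fun v => x • v
                 invFun := fun v => x⁻¹ • v
                 left_inv := fun v => inv_smul_smul _ _
                 right_inv := fun v => smul_inv_smul _ _
                 map_add' := fun u v => smul_add _ _ _
                 map_smul' := fun a v => h.lin hx a v }, fun u v => h.isom hx u v⟩, h.ext fun v => ?_⟩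
      rw [hρ]
      rfl
  · rw [← hρ, ht, one_smul, one_smul]
  · rintro ⟨a, ha⟩
    have hV : Nontrivial V := Module.nontrivial_of_finrank_pos (R := F) (by omega)
    obtain ⟨v, hv⟩ := _root_.exists_ne (0 : V)
    have hB : NAlt B := ⟨h.alt, h.nd⟩
    obtain ⟨w, hw⟩ := hB.exists_one hv
    have h1 := t.2 v w
    rw [ha, ha, map_smul, map_smul, LinearMap.smul_apply, hw, smul_eq_mul, smul_eq_mul, mul_one] at h1
    have h2 : a = 1 := by
      have h3 : (a - 1) * (a - 1) = 0 := by linear_combination h1 + (1 - a) * h.two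
      exact sub_eq_zero.1 (mul_self_eq_zero.1 h3)
    refine h.inj _ fun v => ?_
    rw [hρ, ha, h2, one_smul]
  · obtain ⟨M, -, -, hM⟩ := hL x
    exact ⟨M, hM⟩

/-- **no member is a field automorphism with `|F_0| > 2` (or dimension at least six), `q` even**, environment `Ev` -/
theorem ev_field {F V G Ω S : Type} [Field F] [Finite F] [AddCommGroup V] [Module F V] [FiniteDimensional F V] [Group G]
    [Finite G] [DistribMulAction G V] {B : LinearMap.BilinForm F V} {N : Subgroup G} (h : Ev B N) [MulAction G Ω]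
    [Nonempty Ω] (hE : Env G Ω N) [Group S] [Finite S] (hIH : IH (Nat.card S)) (eS : N ≃* S) {ι : Type} [Finite ι]
    {x : ι → G} {r : ι → ℕ} (hx : PF x r) (hcov : Cov Ω x) (hdim : 4 ≤ finrank F V) (i : ι) (hi : x i ∉ N)
    (hc : 6 ≤ finrank F V ∨ ∃ c : F, c ≠ 0 ∧ c ≠ 1 ∧ ∀ v : V, x i • c • v = c • x i • v) : False := by
  obtain ⟨ρ, hρ, E, hL⟩ := Ev_sp h hE hdim
  choose M hMl hMv hM using fun i => hL (x i)
  have hi0 : ¬ (M i).IsLin := by
    intro h1
    apply hi
    rw [h.mem]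
    intro a v
    rw [← hMv, ← hMv, h1.map_smul]
  obtain ⟨Y, b, hY, hb, hord⟩ := exists_Y E (hM i) (hx.prime i) (hx.pow i) hi0
  have hσ : Y.σ ≠ 1 := by
    intro h
    rw [h, orderOf_one] at hord
    exact (hx.prime i).ne_one hord.symm
  rw [← Nat.card_congr eS.toEquiv] at hIH
  refine dead_field E hIH h.two hx hcov hM i hY hb hσ ?_
  rcases hc with hc | ⟨c, hc0, hc1, hc⟩
  · exact Or.inl hc
  · right
    have hV := SpEnv_nontrivial E
    obtain ⟨v, hv⟩ := _root_.exists_ne (0 : V)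
    have hYc : Y.σ c = c := by
      obtain ⟨a, ha, h1⟩ := E.lf_unique (hM i) hY
      have h3 : Y (c • v) = c • Y v := by rw [h1, h1, hMv, hMv, hc, smul_comm]
      rw [Y.map_smul] at h3
      have h4 : (Y.σ c - c) • Y v = 0 := by rw [sub_smul, h3, sub_self]
      rcases smul_eq_zero.1 h4 with h5 | h5
      · exact sub_eq_zero.1 h5
      · exact absurd (Y.injective (h5.trans Y.map_zero.symm)) hv
    have h4 : 2 ≤ Nat.card (Fx Y.σ) := Finite.one_lt_card
    by_contra h5
    have h6 : Nat.card (Fx Y.σ) = 2 := by omega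
    rw [Nat.card_eq_two_iff' (0 : Fx Y.σ)] at h6
    obtain ⟨z, hz, hz'⟩ := h6
    have h7 := hz' 1 one_ne_zero
    have h8 := hz' ⟨c, mem_Fx.2 hYc⟩ (fun h9 => hc0 (congrArg Subtype.val h9))
    apply hc1
    exact congrArg Subtype.val (h8.trans h7.symm)

end ev

end Cfsg.Agent.H327.RC
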